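import Cfsg.Agent.H188.RC.FA1
import Cfsg.Agent.H236.RC.FA3

/-!
# S3510, row F: some lift is not linear (helper236)

`box_FA` : a covering family of prime-power type one of whose lifts is not linear does not exist
(`finrank ≥ 7`, odd or even), under the induction hypothesis.
-/

set_option autoImplicit false
open Cfsg

namespace Cfsg.Agent.H236.RC

open QuadraticMap MulAction
open Cfsg.Agent.LieClassical.OrthCore Cfsg.Agent.LieClassical.OrthTrans
open Cfsg.Agent.LieClassical.OrthSimple Cfsg.Agent.ClassicalGeometry.OrthSemi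
open Cfsg.Agent.ClassicalGeometry.OrthAut1 Cfsg.Agent.H106.RC Cfsg.Agent.H93.RC

/-- **BOX FA.** The row when some lift is not linear, all dimensions `≥ 7`. -/
theorem box_FA {F V G Ω S ι : Type} [Field F] [Finite F] [AddCommGroup V] [Module F V]
    [FiniteDimensional F V] {Q : QuadraticForm F V} [Group G] [Finite G] [MulAction G Ω] [Nonempty Ω]
    [Group S] [Finite S] {N : Subgroup G} {ρ : ↥(E Q) →* G}
    (hG : Good Q) (h7 : 7 ≤ Module.finrank F V) (hE : Env G Ω N) (hρ : Rep Q N ρ)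
    (e : N ≃* S) (hIH : IH (Nat.card S)) [Finite ι] {x : ι → G} {M : ι → Gam Q} {r : ι → ℕ} (hx : PF x r)
    (hl : ∀ i, Lf ρ (x i) (M i)) (hcov : Cov Ω x) (hne : ∃ i, ¬ IsLin (M i)) : False := by
  obtain ⟨K, b, Q0, d, hφ, hd, hQ, hnl, hlin⟩ := H188.RC.exists_descent hG hρ hl hx hne
  exact box_FA3 hG h7 hE hρ e hIH hx hl hcov hφ hd hQ hnl hlin hne

/-- `N ≃ P Q` -/
theorem exists_equiv_P {F V G : Type*} [Field F] [AddCommGroup V] [Module F V]
    {Q : QuadraticForm F V} [Group G] {N : Subgroup G} {ρ : ↥(E Q) →* G} (hρ : Rep Q N ρ) :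
    Nonempty (N ≃* P Q) := by
  have hmem : ∀ t, ρ t ∈ N := fun t => by rw [← hρ.range]; exact ⟨t, rfl⟩
  let ρN : ↥(E Q) →* N := ρ.codRestrict N hmem
  have hρNs : Function.Surjective ρN := by
    rintro ⟨n, hn⟩
    have hn' := hn
    rw [← hρ.range] at hn'
    obtain ⟨t, ht⟩ := hn'
    exact ⟨t, Subtype.ext ht⟩
  have hρNk : ρN.ker = Subgroup.center ↥(E Q) := by
    rw [← hρ.ker]
    ext t
    rw [MonoidHom.mem_ker, MonoidHom.mem_ker]
    exact ⟨fun h => congrArg Subtype.val h, fun h => Subtype.ext h⟩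
  exact ⟨((QuotientGroup.quotientMulEquivOfEq hρNk.symm).trans
    (QuotientGroup.quotientKerEquivOfSurjective ρN hρNs)).symm⟩

/-- **BOX FA** in the form of the stubs of helper93. -/
theorem box_FA' {F V G Ω ι : Type} [Field F] [Finite F] [AddCommGroup V] [Module F V]
    [FiniteDimensional F V] {Q : QuadraticForm F V} [Group G] [Finite G] [MulAction G Ω] [Nonempty Ω]
    {N : Subgroup G} {ρ : ↥(E Q) →* G}
    (hG : Good Q) (h7 : 7 ≤ Module.finrank F V) (hE : Env G Ω N) (hρ : Rep Q N ρ)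
    [Finite ι] {x : ι → G} {M : ι → Gam Q} {r : ι → ℕ}
    (hl : ∀ i, Lf ρ (x i) (M i)) (hx : PF x r) (hcov : Cov Ω x) (hIH : IH (Nat.card (P Q)))
    (hne : ∃ i, ¬ IsLin (M i)) : False := by
  obtain ⟨e⟩ := exists_equiv_P hρ
  have hfV : Finite V := Module.finite_of_finite F
  have hfP : Finite (P Q) := finite_P
  exact box_FA hG h7 hE hρ e hIH hx hl hcov hne

end Cfsg.Agent.H236.RC
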