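import Cfsg.Agent.H236.RC.Ident

/-!
# S3510, row F, box FA2 (helper236): the embedding of the orthogonal group over a subfield

`semJ φ b : (Fin n → F₀) → V`, `v ↦ ∑ φ(v i) b i`; `Q (semJ v) = d φ(Q₀ v)`.

* `nondeg0`, `good0` : `Q₀` is nondegenerate (good);
* `extS` : `GL(F₀ⁿ) →* GL(V)`, `extS g (semJ v) = semJ (g v)`; `psiE` : `E Q₀ →* E Q`.
-/

set_option autoImplicit false
set_option linter.unusedSectionVars false

open Cfsg

namespace Cfsg.Agent.H236.RC

open QuadraticMap MulAction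
open Cfsg.Agent.LieClassical.OrthCore Cfsg.Agent.LieClassical.OrthTrans
open Cfsg.Agent.LieClassical.OrthSimple Cfsg.Agent.ClassicalGeometry.OrthSemi
open Cfsg.Agent.ClassicalGeometry.OrthAut1 Cfsg.Agent.H106.RC
open Cfsg.Agent.AutOrth.SemiSim

section semJ

variable {F F0 V : Type*} [Field F] [Field F0] [AddCommGroup V] [Module F V] {n : ℕ}
  (φ : F0 →+* F) (b : Module.Basis (Fin n) F V)

/-- the semilinear embedding `F₀ⁿ → V` -/
noncomputable def semJ (v : Fin n → F0) : V := ∑ i, φ (v i) • b i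

theorem semJ_add (u v : Fin n → F0) : semJ φ b (u + v) = semJ φ b u + semJ φ b v := by
  simp only [semJ, Pi.add_apply, map_add, add_smul, Finset.sum_add_distrib]

theorem semJ_smul (a : F0) (v : Fin n → F0) : semJ φ b (a • v) = φ a • semJ φ b v := by
  simp only [semJ, Pi.smul_apply, smul_eq_mul, map_mul, mul_smul, Finset.smul_sum]

theorem semJ_zero : semJ φ b 0 = 0 := by
  simp [semJ]

theorem semJ_neg (v : Fin n → F0) : semJ φ b (-v) = -semJ φ b v := by
  simp only [semJ, Pi.neg_apply, map_neg, neg_smul, Finset.sum_neg_distrib]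

theorem semJ_sub (u v : Fin n → F0) : semJ φ b (u - v) = semJ φ b u - semJ φ b v := by
  rw [sub_eq_add_neg, semJ_add, semJ_neg, sub_eq_add_neg]

theorem semJ_sum {κ : Type*} (s : Finset κ) (f : κ → Fin n → F0) :
    semJ φ b (∑ i ∈ s, f i) = ∑ i ∈ s, semJ φ b (f i) := by
  classical
  induction s using Finset.induction_on with
  | empty => simp [semJ_zero]
  | insert a s ha ih => rw [Finset.sum_insert ha, Finset.sum_insert ha, semJ_add, ih]

theorem semJ_single (i : Fin n) : semJ φ b (Pi.single i 1) = b i := by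
  classical
  rw [semJ, Finset.sum_eq_single i]
  · rw [Pi.single_eq_same, map_one, one_smul]
  · intro j _ hj
    rw [Pi.single_eq_of_ne hj, map_zero, zero_smul]
  · intro h
    exact absurd (Finset.mem_univ i) h

theorem semJ_injective : Function.Injective (semJ φ b) := by
  intro u v h
  have h1 : ∀ i, φ (u i) = φ (v i) := by
    intro i
    have h1 : ∀ w : Fin n → F0, ⇑(b.repr (semJ φ b w)) = fun i => φ (w i) := fun w =>
      b.repr_sum_self fun i => φ (w i)
    have h2 := congrFun (h1 u) i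
    rw [h, h1 v] at h2
    exact h2.symm
  funext i
  exact φ.injective (h1 i)

/-- linear maps which agree on the image of `semJ` -/
theorem lin_ext {V' : Type*} [AddCommGroup V'] [Module F V'] {f g : V →ₗ[F] V'}
    (h : ∀ v, f (semJ φ b v) = g (semJ φ b v)) : f = g := by
  apply b.ext
  intro i
  rw [← semJ_single φ b i]
  exact h _

/-- the linear extension of a linear map of `F₀ⁿ` -/
noncomputable def extL (g : (Fin n → F0) ≃ₗ[F0] (Fin n → F0)) : V →ₗ[F] V :=
  b.constr F fun i => semJ φ b (g (Pi.single i 1))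

theorem extL_semJ (g : (Fin n → F0) ≃ₗ[F0] (Fin n → F0)) (v : Fin n → F0) :
    extL φ b g (semJ φ b v) = semJ φ b (g v) := by
  classical
  have h1 : v = ∑ i, v i • (Pi.single i 1 : Fin n → F0) := by
    funext j
    rw [Finset.sum_apply, Finset.sum_eq_single j]
    · simp
    · intro i _ hi
      rw [Pi.smul_apply, Pi.single_eq_of_ne hi.symm, smul_zero]
    · intro h
      exact absurd (Finset.mem_univ j) h
  have h2 : g v = ∑ i, v i • g (Pi.single i 1) := by
    conv_lhs => rw [h1]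
    rw [map_sum]
    exact Finset.sum_congr rfl fun i _ => map_smul g _ _
  rw [h2, semJ_sum]
  unfold extL
  rw [semJ, map_sum]
  refine Finset.sum_congr rfl fun i _ => ?_
  rw [map_smul, Module.Basis.constr_basis, semJ_smul]

/-- `GL(F₀ⁿ) →* GL(V)` -/
noncomputable def extS : ((Fin n → F0) ≃ₗ[F0] (Fin n → F0)) →* (V ≃ₗ[F] V) :=
  (LinearMap.GeneralLinearGroup.generalLinearEquiv F V).toMonoidHom.comp
    (MonoidHom.toHomUnits
      { toFun := extL φ b
        map_one' := by
          refine lin_ext φ b fun v => ?_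
          rw [extL_semJ]
          rfl
        map_mul' := fun g h => by
          refine lin_ext φ b fun v => ?_
          rw [extL_semJ]
          show _ = extL φ b g (extL φ b h (semJ φ b v))
          rw [extL_semJ, extL_semJ]
          rfl })

theorem extS_semJ (g : (Fin n → F0) ≃ₗ[F0] (Fin n → F0)) (v : Fin n → F0) :
    extS φ b g (semJ φ b v) = semJ φ b (g v) := extL_semJ φ b g v

theorem equiv_ext {f g : V ≃ₗ[F] V} (h : ∀ v, f (semJ φ b v) = g (semJ φ b v)) : f = g := by
  apply LinearEquiv.toLinearMap_injective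
  exact lin_ext φ b h

theorem extS_injective : Function.Injective (extS (F0 := F0) φ b) := by
  intro g h hgh
  ext1 v
  apply semJ_injective φ b
  rw [← extS_semJ, hgh, extS_semJ]

end semJ

section form

variable {F F0 V : Type*} [Field F] [Field F0] [AddCommGroup V] [Module F V] {n : ℕ}
  {φ : F0 →+* F} {b : Module.Basis (Fin n) F V} {Q : QuadraticForm F V} {Q0 : QuadraticForm F0 (Fin n → F0)}
  {d : F}

theorem polar_semJ (hQ : ∀ v, Q (semJ φ b v) = d * φ (Q0 v)) (u v : Fin n → F0) :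
    polar Q (semJ φ b u) (semJ φ b v) = d * φ (polar Q0 u v) := by
  simp only [polar, ← semJ_add, hQ, map_sub]
  ring

theorem nondeg0 (hG : Nondeg Q) (hQ : ∀ v, Q (semJ φ b v) = d * φ (Q0 v)) : Nondeg Q0 := by
  intro u hu
  apply semJ_injective φ b
  rw [semJ_zero]
  apply hG
  intro v
  have h1 : (polarBilin Q (semJ φ b u)) = 0 := by
    refine lin_ext φ b fun v => ?_
    show polar Q (semJ φ b u) (semJ φ b v) = 0
    rw [polar_semJ hQ, hu, map_zero, mul_zero]
  exact LinearMap.congr_fun h1 v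

theorem good0 [Finite F] (hG : Good Q) (hQ : ∀ v, Q (semJ φ b v) = d * φ (Q0 v)) : Good Q0 := by
  have hf : Finite F0 := Finite.of_injective φ φ.injective
  refine LieClassical.OrthFinite.good_of_finite (nondeg0 hG.nondeg hQ) ?_
  rw [Module.finrank_fin_fun]
  have := hG.dim
  rwa [Module.finrank_eq_card_basis b, Fintype.card_fin] at this

theorem extS_siegel (hd : d ≠ 0) (hQ : ∀ v, Q (semJ φ b v) = d * φ (Q0 v)) {u w : Fin n → F0} (hu : Q0 u = 0)
    (hw : polar Q0 u w = 0) (hu' : Q (semJ φ b u) = 0) (hw' : polar Q (semJ φ b u) (d⁻¹ • semJ φ b w) = 0) :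
    extS φ b (siegel Q0 u w hu hw) = siegel Q (semJ φ b u) (d⁻¹ • semJ φ b w) hu' hw' := by
  refine equiv_ext φ b fun v => ?_
  rw [extS_semJ, siegel_apply, siegel_apply, semJ_sub, semJ_sub, semJ_add, semJ_smul, semJ_smul, semJ_smul,
    polar_smul_left, polar_semJ hQ, polar_semJ hQ, QuadraticMap.map_smul, hQ, map_mul, smul_smul]
  simp only [smul_eq_mul]
  match_scalars
  · ring
  · field_simp
  · field_simp

theorem extS_mem_E (hd : d ≠ 0) (hQ : ∀ v, Q (semJ φ b v) = d * φ (Q0 v))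
    {g : (Fin n → F0) ≃ₗ[F0] (Fin n → F0)} (hg : g ∈ E Q0) : extS φ b g ∈ E Q := by
  have h1 : E Q0 ≤ (E Q).comap (extS φ b) := by
    rw [E, Subgroup.closure_le]
    rintro _ ⟨u, w, hu, hw, rfl⟩
    have hu' : Q (semJ φ b u) = 0 := by rw [hQ, hu, map_zero, mul_zero]
    have hw' : polar Q (semJ φ b u) (d⁻¹ • semJ φ b w) = 0 := by
      rw [polar_smul_right, polar_semJ hQ, hw, map_zero, mul_zero, smul_zero]
    show extS φ b (siegel Q0 u w hu hw) ∈ E Q
    rw [extS_siegel hd hQ hu hw hu' hw']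
    exact siegel_mem_E _ _
  exact h1 hg

/-- **FA2**: the embedding `E Q₀ →* E Q` -/
noncomputable def psiE (hd : d ≠ 0) (hQ : ∀ v, Q (semJ φ b v) = d * φ (Q0 v)) : ↥(E Q0) →* ↥(E Q) :=
  ((extS φ b).comp (E Q0).subtype).codRestrict (E Q) fun g => extS_mem_E hd hQ g.2

theorem psiE_coe (hd : d ≠ 0) (hQ : ∀ v, Q (semJ φ b v) = d * φ (Q0 v)) (g : ↥(E Q0)) :
    (psiE hd hQ g : V ≃ₗ[F] V) = extS φ b (g : (Fin n → F0) ≃ₗ[F0] (Fin n → F0)) := rfl

theorem psiE_semJ (hd : d ≠ 0) (hQ : ∀ v, Q (semJ φ b v) = d * φ (Q0 v)) (g : ↥(E Q0)) (v : Fin n → F0) :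
    (psiE hd hQ g : V ≃ₗ[F] V) (semJ φ b v) = semJ φ b ((g : (Fin n → F0) ≃ₗ[F0] (Fin n → F0)) v) :=
  extS_semJ φ b _ v

theorem psiE_injective (hd : d ≠ 0) (hQ : ∀ v, Q (semJ φ b v) = d * φ (Q0 v)) : Function.Injective (psiE hd hQ) := by
  intro g h hgh
  apply Subtype.ext
  apply extS_injective φ b
  rw [← psiE_coe hd hQ, hgh, psiE_coe]

/-- the extension of `g` is central only if `g` is -/
theorem mem_center_of_psiE (hd : d ≠ 0) (hQ : ∀ v, Q (semJ φ b v) = d * φ (Q0 v)) {g : ↥(E Q0)}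
    (hg : psiE hd hQ g ∈ Subgroup.center ↥(E Q)) : g ∈ Subgroup.center ↥(E Q0) := by
  rw [Subgroup.mem_center_iff] at hg ⊢
  intro h
  apply psiE_injective hd hQ
  rw [map_mul, map_mul]
  exact hg _

end form

end Cfsg.Agent.H236.RC
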